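import Cfsg.Agent.BlkC.Corollaries
import Cfsg.Agent.BlkC.DefectOrder
import Cfsg.Agent.Char.Linear

set_option autoImplicit false

/-!
# Height zero characters over a central character
-/

namespace Cfsg.Agent.H83

open Cfsg
open scoped ComplexConjugate
open Cfsg.Agent.CharBase

theorem complex_eq_of_norm_le_re {w : ℂ} {r : ℝ} (h1 : ‖w‖ ≤ r) (h2 : r ≤ w.re) : w = r := by
  have h3 : w.re ≤ ‖w‖ := Complex.re_le_norm w
  have h4 : ‖w‖ = w.re := le_antisymm (h1.trans h2) h3
  have h5 : w.im = 0 := by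
    have := Complex.sq_norm_sub_sq_re w
    rw [h4, sub_self] at this
    exact pow_eq_zero_iff (two_ne_zero) |>.mp this.symm
  apply Complex.ext
  · rw [Complex.ofReal_re]; linarith
  · rw [Complex.ofReal_im]; exact h5

/-- constituents of a character having scalar value at `x` -/
theorem constituent_over {X : Type*} [Group X] [Finite X] [Fintype (IrrCharacter X)] {φ : X → ℂ}
    {m : IrrCharacter X → ℕ} (hm : φ = ∑ ψ : IrrCharacter X, m ψ • (ψ : X → ℂ)) (x : X) (c : ℂ) (hc : ‖c‖ = 1)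
    (h : φ x = φ 1 * c) (θ : IrrCharacter X) (hθ : m θ ≠ 0) : (θ : X → ℂ) x = (θ : X → ℂ) 1 * c := by
  have hval : ∀ y, φ y = ∑ ψ : IrrCharacter X, (m ψ : ℂ) * (ψ : X → ℂ) y := by
    intro y
    rw [hm]
    simp [Finset.sum_apply, nsmul_eq_mul]
  have hcc : c * conj c = 1 := by
    rw [Complex.mul_conj, Complex.normSq_eq_norm_sq, hc]; norm_num
  have hdeg : ∀ ψ : IrrCharacter X, ∃ n : ℕ, (ψ : X → ℂ) 1 = n ∧ ‖(ψ : X → ℂ) x‖ ≤ n := fun ψ =>
    norm_le_of_isCharacter (irr_isCharacter ψ) x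
  choose n hn hnx using hdeg
  have h1 : ∑ ψ : IrrCharacter X, (m ψ : ℝ) * ((n ψ : ℝ) - ((ψ : X → ℂ) x * conj c).re) = 0 := by
    have h2 : ∑ ψ : IrrCharacter X, (m ψ : ℂ) * ((n ψ : ℂ) - (ψ : X → ℂ) x * conj c) = 0 := by
      have h3 : φ x * conj c = φ 1 := by rw [h, mul_assoc, hcc, mul_one]
      have h4 : ∑ ψ : IrrCharacter X, (m ψ : ℂ) * ((n ψ : ℂ) - (ψ : X → ℂ) x * conj c) = φ 1 - φ x * conj c := by
        rw [hval, hval, Finset.sum_mul, ← Finset.sum_sub_distrib]
        refine Finset.sum_congr rfl fun ψ _ => ?_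
        rw [hn ψ]; ring
      rw [h4, h3, sub_self]
    have h5 := congrArg Complex.re h2
    rw [Complex.re_sum] at h5
    rw [← Complex.zero_re, ← h5]
    refine Finset.sum_congr rfl fun ψ _ => ?_
    simp
  have h2 : ∀ ψ ∈ (Finset.univ : Finset (IrrCharacter X)), 0 ≤ (m ψ : ℝ) * ((n ψ : ℝ) - ((ψ : X → ℂ) x * conj c).re) := by
    intro ψ _
    apply mul_nonneg (Nat.cast_nonneg _)
    have h3 := Complex.re_le_norm ((ψ : X → ℂ) x * conj c)
    rw [norm_mul, Complex.norm_conj, hc, mul_one] at h3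
    linarith [hnx ψ]
  have h3 := (Finset.sum_eq_zero_iff_of_nonneg h2).mp h1 θ (Finset.mem_univ _)
  have h4 : (n θ : ℝ) - ((θ : X → ℂ) x * conj c).re = 0 := by
    rcases mul_eq_zero.mp h3 with h5 | h5
    · exact absurd (by exact_mod_cast h5) hθ
    · exact h5
  have h5 : (θ : X → ℂ) x * conj c = ((n θ : ℝ) : ℂ) := by
    apply complex_eq_of_norm_le_re
    · rw [norm_mul, Complex.norm_conj, hc, mul_one]; exact hnx θ
    · linarith
  rw [hn θ]
  calc (θ : X → ℂ) x = (θ : X → ℂ) x * conj c * c := by rw [mul_assoc, mul_comm (conj c), hcc, mul_one]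
    _ = _ := by rw [h5]; simp

open Cfsg.Agent.Blk Cfsg.Agent.BlkC

/-- a character of a group with central element `z` whose value at `z` is not in M has a constituent of p'-degree -/
theorem exists_constituent_of_central {p : ℕ} [Fact p.Prime] {M : Ideal AlgInt} (hM : IsPModular p M)
    {X : Type*} [Group X] [Finite X] [Fintype (IrrCharacter X)] {φ : X → ℂ}
    {m : IrrCharacter X → ℕ} (hm : φ = ∑ ψ : IrrCharacter X, m ψ • (ψ : X → ℂ)) (z : X)
    (hz : ∀ y : X, Commute z y) (hφ : ¬ MemLocalIdeal M (φ z)) :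
    ∃ θ : IrrCharacter X, m θ ≠ 0 ∧ ¬ p ∣ charDegree (θ : X → ℂ) := by
  have := hM.2.1.isPrime
  have := Fintype.ofFinite X
  by_contra hc
  push Not at hc
  apply hφ
  have hval : φ z = ∑ ψ : IrrCharacter X, (m ψ : ℂ) * (ψ : X → ℂ) z := by
    rw [hm]
    simp [Finset.sum_apply, nsmul_eq_mul]
  rw [hval]
  apply mli_sum
  intro ψ _
  by_cases h0 : m ψ = 0
  · rw [h0, Nat.cast_zero, zero_mul]; exact mli_zero
  have h1 := hc ψ h0
  have h2 := isIntegral_centralChar ψ.2 z
  have h3 : Subgroup.centralizer ({z} : Set X) = ⊤ := by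
    rw [eq_top_iff]
    intro y _
    rw [Subgroup.mem_centralizer_singleton_iff]
    exact (hz y).eq.symm
  rw [h3, Subgroup.index_top, Nat.cast_one, one_mul] at h2
  have h4 : (ψ : X → ℂ) 1 ≠ 0 := irr_one_ne_zero ψ.2
  have h5 : (m ψ : ℂ) * (ψ : X → ℂ) z = (m ψ : ℂ) * ((charDegree (ψ : X → ℂ) : ℂ) * ((ψ : X → ℂ) z / (ψ : X → ℂ) 1)) := by
    rw [← charDegree_spec ψ]; field_simp
  rw [h5]
  apply mli_mul_left (mlr_natCast _)
  exact mli_mul_right ((mli_natCast_iff hM _).mpr h1) (mlr_of_isIntegral h2)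

/-- the value of a height zero character at the defect class is a unit modulo M -/
theorem not_mli_of_height_zero {G : Type*} [Group G] [Finite G] {p : ℕ} [Fact p.Prime] {M : Ideal AlgInt}
    (hM : IsPModular p M) {B : Set (IrrCharacter G)} (hB : IsPBlock M B) {g : G} (hg : IsDefectClass M B g)
    (P : Sylow p (Subgroup.centralizer ({g} : Set G)))
    (hcard : Nat.card ((P : Subgroup (Subgroup.centralizer ({g} : Set G))).map
      (Subgroup.centralizer ({g} : Set G)).subtype) = p ^ blockDefect p B)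
    {χ : IrrCharacter G} (hχ : χ ∈ B) (h0 : blockHeight p B (χ : G → ℂ) = 0) : ¬ MemLocalIdeal M ((χ : G → ℂ) g) := by
  have hMp := hM.2.1.isPrime
  have := Fintype.ofFinite G
  have hp := (Fact.out : p.Prime)
  intro hc
  apply hg.2.2 χ hχ
  obtain ⟨-, -, m, hm, hmc⟩ := sylow_centralizer_spec P
  rw [hcard] at hmc
  have hne : B.Nonempty := ⟨χ, hχ⟩
  have h1 := nu_eq_height_add (p := p) hχ
  rw [h0, add_zero] at h1
  have h2 := defect_add_nuMin (p := p) hne
  have hidx := Subgroup.card_mul_index (Subgroup.centralizer ({g} : Set G))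
  set i := (Subgroup.centralizer ({g} : Set G)).index with hi
  set n := charDegree (χ : G → ℂ) with hn
  have hn0 : n ≠ 0 := by
    intro h
    have := charDegree_spec χ
    rw [← hn, h, Nat.cast_zero] at this
    exact irr_one_ne_zero χ.2 this
  have hi0 : i ≠ 0 := Subgroup.index_ne_zero_of_finite
  have hm0 : m ≠ 0 := by rintro rfl; exact hm (dvd_zero p)
  have h3 : i.factorization p = n.factorization p := by
    have h4 : (Nat.card G).factorization p = blockDefect p B + i.factorization p := by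
      rw [← hidx, ← hmc, Nat.factorization_mul (mul_ne_zero (pow_ne_zero _ hp.ne_zero) hm0) hi0,
        Nat.factorization_mul (pow_ne_zero _ hp.ne_zero) hm0, hp.factorization_pow]
      simp [Nat.factorization_eq_zero_of_not_dvd hm]
    have h5 : n.factorization p = nuMin p B := h1
    omega
  obtain ⟨u, hu, hu'⟩ : ∃ u, ¬ p ∣ u ∧ i = p ^ (i.factorization p) * u :=
    ⟨i / p ^ (i.factorization p), Nat.not_dvd_ordCompl hp hi0, (Nat.ordProj_mul_ordCompl_eq_self i p).symm⟩
  obtain ⟨v, hv, hv'⟩ : ∃ v, ¬ p ∣ v ∧ n = p ^ (n.factorization p) * v :=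
    ⟨n / p ^ (n.factorization p), Nat.not_dvd_ordCompl hp hn0, (Nat.ordProj_mul_ordCompl_eq_self n p).symm⟩
  have hv0 : (v : ℂ) ≠ 0 := by
    intro h
    have : v = 0 := by exact_mod_cast h
    rw [this] at hv; exact hv (dvd_zero p)
  have hp0 : (p : ℂ) ≠ 0 := by exact_mod_cast hp.ne_zero
  have h6 : centralChar (χ : G → ℂ) g = ((u : ℂ) * (v : ℂ)⁻¹) * (χ : G → ℂ) g := by
    unfold centralChar
    rw [← hi, charDegree_spec χ, ← hn, hu', hv', h3]
    push_cast
    field_simp
  rw [h6]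
  apply mli_mul_left _ hc
  apply mlr_mul (mlr_natCast _)
  apply mlr_inv (mlr_natCast _)
  rw [mli_natCast_iff hM]; exact hv

theorem extends_of_height_zero {G : Type*} [Group G] [Finite G] (p : ℕ) [Fact p.Prime] (M : Ideal AlgInt)
    (hM : IsPModular p M) (B : Set (IrrCharacter G)) (hB : IsPBlock M B) (D : Subgroup G)
    (hD : IsDefectGroup p M B D) (hcard : Nat.card D = p ^ blockDefect p B) (Z : Subgroup G)
    (hZD : Z ≤ D) (lam : ↥Z →* ℂˣ)
    (χ : IrrCharacter G) (hχ : χ ∈ B) (hover : (∀ z : ↥Z, (χ : G → ℂ) z = (χ : G → ℂ) 1 * (lam z : ℂ)))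
    (h0 : blockHeight p B (χ : G → ℂ) = 0) : (∃ μ : ↥D →* ℂˣ, ∀ z : ↥Z, μ ⟨(z : G), hZD z.2⟩ = lam z) := by
  classical
  have hMp := hM.2.1.isPrime
  have hp := (Fact.out : p.Prime)
  obtain ⟨g, hg, P, rfl⟩ := hD
  have hnot := not_mli_of_height_zero hM hB hg P hcard hχ h0
  obtain ⟨-, hcomm, -⟩ := sylow_centralizer_spec P
  set D := (P : Subgroup (Subgroup.centralizer ({g} : Set G))).map
      (Subgroup.centralizer ({g} : Set G)).subtype with hDdef
  set K : Subgroup G := Subgroup.zpowers g ⊔ D with hK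
  have hgK : g ∈ K := (le_sup_left : _ ≤ K) (Subgroup.mem_zpowers g)
  have hDK : D ≤ K := le_sup_right
  have hlam : ∀ z : ↥Z, ‖(lam z : ℂ)‖ = 1 := by
    intro z
    apply Complex.norm_eq_one_of_pow_eq_one (n := orderOf z) _ (orderOf_pos z).ne'
    rw [← Units.val_pow_eq_pow_val, ← map_pow, pow_orderOf_eq_one, map_one, Units.val_one]
  have := Fintype.ofFinite (IrrCharacter K)
  have := Fintype.ofFinite (IrrCharacter D)
  have := Fintype.ofFinite K
  have := Fintype.ofFinite D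
  have hχK : IsCharacter K (fun k : K => (χ : G → ℂ) k) := isCharacter_restrict (irr_isCharacter χ) K
  obtain ⟨m, -, hm⟩ := exists_mult_of_isCharacter hχK
  obtain ⟨θ, hθ, hθp⟩ := exists_constituent_of_central hM hm ⟨g, hgK⟩ (by
    rintro ⟨y, hy⟩
    apply Subtype.ext
    show g * y = y * g
    have : y ∈ Subgroup.centralizer ({g} : Set G) := by
      have hle : K ≤ Subgroup.centralizer ({g} : Set G) := by
        apply sup_le
        · rw [Subgroup.zpowers_le, Subgroup.mem_centralizer_singleton_iff]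
        · intro d hd
          rw [Subgroup.mem_centralizer_singleton_iff]
          exact (hcomm d hd).eq.symm
      exact hle hy
    rw [Subgroup.mem_centralizer_singleton_iff] at this
    exact this.symm) hnot
  have hθD : IsCharacter D (fun d : D => (θ : K → ℂ) (Subgroup.inclusion hDK d)) :=
    isCharacter_comp (irr_isCharacter θ) (Subgroup.inclusion hDK)
  obtain ⟨n, -, hn⟩ := exists_mult_of_isCharacter hθD
  have hone : ¬ MemLocalIdeal M ((fun d : D => (θ : K → ℂ) (Subgroup.inclusion hDK d)) 1) := by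
    show ¬ MemLocalIdeal M ((θ : K → ℂ) (Subgroup.inclusion hDK 1))
    rw [map_one, charDegree_spec θ, mli_natCast_iff hM]
    exact hθp
  obtain ⟨μ, hμ, hμp⟩ := exists_constituent_of_central hM hn 1 (fun y => Commute.one_left y) hone
  have hμ1 : charDegree (μ : D → ℂ) = 1 := by
    have h1 : charDegree (μ : D → ℂ) ∣ Nat.card D := degree_dvd_card μ.2 (charDegree_spec μ)
    rw [hcard] at h1
    obtain ⟨k, -, hk⟩ := (Nat.dvd_prime_pow hp).mp h1
    rcases Nat.eq_zero_or_pos k with h2 | h2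
    · rw [hk, h2, pow_zero]
    · exfalso; apply hμp; rw [hk]; exact dvd_pow_self p h2.ne'
  have hμ1' : (μ : D → ℂ) 1 = 1 := by rw [charDegree_spec μ, hμ1, Nat.cast_one]
  refine ⟨(Cfsg.Agent.Char.linHom (irr_isCharacter μ) hμ1').toHomUnits, ?_⟩
  intro z
  apply Units.ext
  have e1 : (θ : K → ℂ) ⟨(z : G), hDK (hZD z.2)⟩ = (θ : K → ℂ) 1 * (lam z : ℂ) :=
    constituent_over hm ⟨(z : G), hDK (hZD z.2)⟩ (lam z : ℂ) (hlam z) (hover z) θ hθ
  have e2 : (μ : D → ℂ) ⟨(z : G), hZD z.2⟩ = (μ : D → ℂ) 1 * (lam z : ℂ) :=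
    constituent_over hn ⟨(z : G), hZD z.2⟩ (lam z : ℂ) (hlam z) (by
      show (θ : K → ℂ) (Subgroup.inclusion hDK ⟨(z : G), hZD z.2⟩) = (θ : K → ℂ) (Subgroup.inclusion hDK 1) * (lam z : ℂ)
      rw [map_one]; exact e1) μ hμ
  rw [hμ1', one_mul] at e2
  exact e2

end Cfsg.Agent.H83
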